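import Mathlib.LinearAlgebra.Matrix.SpecialLinearGroup
import Mathlib.LinearAlgebra.Matrix.Transvection
import Mathlib.LinearAlgebra.Matrix.GeneralLinearGroup.Card
import Mathlib.Data.ZMod.Basic
import Mathlib.Tactic

/-!
Matrices over the field with two elements coded by the bits of their rows, and a bound on the
centraliser of a transvection.
-/

set_option autoImplicit false

namespace Cfsg.Agent.Lib.HeCentralizer

open Matrix

/-- The matrix with given rows. -/
def toMat (R : List ℕ) : Matrix (Fin 5) (Fin 5) (ZMod 2) :=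
  fun i j => bif (R.getD i 0).testBit j then 1 else 0

/-- The combination of the rows selected by the bits. -/
def rowMul (a : ℕ) (S : List ℕ) : ℕ :=
  (bif a.testBit 0 then S.getD 0 0 else 0) ^^^ (bif a.testBit 1 then S.getD 1 0 else 0) ^^^
    (bif a.testBit 2 then S.getD 2 0 else 0) ^^^ (bif a.testBit 3 then S.getD 3 0 else 0) ^^^
    (bif a.testBit 4 then S.getD 4 0 else 0)

/-- The product on codes. -/
def mm (R S : List ℕ) : List ℕ :=
  [rowMul (R.getD 0 0) S, rowMul (R.getD 1 0) S, rowMul (R.getD 2 0) S, rowMul (R.getD 3 0) S,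
    rowMul (R.getD 4 0) S]

/-- The code of the identity. -/
def oneCode : List ℕ := [1, 2, 4, 8, 16]

theorem toMat_one : toMat oneCode = 1 := by
  ext i j
  fin_cases i <;> fin_cases j <;> rfl

theorem bit_sum (a b : Fin 5 → Bool) :
    (bif (((((bif a 0 then b 0 else false) ^^ (bif a 1 then b 1 else false)) ^^
      (bif a 2 then b 2 else false)) ^^ (bif a 3 then b 3 else false)) ^^
      (bif a 4 then b 4 else false)) then (1 : ZMod 2) else 0) =
      ∑ k, (bif a k then (1 : ZMod 2) else 0) * (bif b k then (1 : ZMod 2) else 0) := by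
  rw [Fin.sum_univ_five]
  generalize a 0 = a0, a 1 = a1, a 2 = a2, a 3 = a3, a 4 = a4
  generalize b 0 = b0, b 1 = b1, b 2 = b2, b 3 = b3, b 4 = b4
  revert a0 a1 a2 a3 a4 b0 b1 b2 b3 b4
  decide +kernel

theorem toMat_mm (R S : List ℕ) : toMat (mm R S) = toMat R * toMat S := by
  ext i j
  rw [Matrix.mul_apply]
  have hrow : (mm R S).getD i 0 = rowMul (R.getD i 0) S := by fin_cases i <;> rfl
  have := bit_sum (fun k => (R.getD i 0).testBit k) fun k => (S.getD k 0).testBit j
  simp only [toMat, hrow, rowMul, Nat.testBit_xor]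
  rw [← this]
  have e : ∀ (b : Bool) (x : ℕ), (bif b then x else 0).testBit j = (bif b then x.testBit j else false) :=
    fun b x => by cases b <;> simp
  simp only [e]
  rfl

/-- The matrix of an element of a subgroup. -/
abbrev mat {H : Subgroup (Matrix.SpecialLinearGroup (Fin 5) (ZMod 2))} (A : H) :
    Matrix (Fin 5) (Fin 5) (ZMod 2) :=
  ((A : Matrix.SpecialLinearGroup (Fin 5) (ZMod 2)) : Matrix (Fin 5) (Fin 5) (ZMod 2))

/-- The centraliser of the transvection has at most 21504 elements. -/
theorem card_centralizer_le (s : Matrix.SpecialLinearGroup (Fin 5) (ZMod 2))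
    (hs : (s : Matrix (Fin 5) (Fin 5) (ZMod 2)) = Matrix.transvection 0 1 1) :
    Nat.card (Subgroup.centralizer ({s} : Set (Matrix.SpecialLinearGroup (Fin 5) (ZMod 2)))) ≤ 21504 := by
  classical
  have key : ∀ A : Subgroup.centralizer ({s} : Set (Matrix.SpecialLinearGroup (Fin 5) (ZMod 2))),
      (∀ i : Fin 5, i ≠ 0 → (mat A) i 0 = 0) ∧ (∀ j : Fin 5, j ≠ 1 → (mat A) 1 j = 0) ∧
        (mat A) 0 0 = (mat A) 1 1 := by
    intro A
    have h := congrArg (fun x : Matrix.SpecialLinearGroup (Fin 5) (ZMod 2) =>
      (x : Matrix (Fin 5) (Fin 5) (ZMod 2))) (Subgroup.mem_centralizer_singleton_iff.1 A.2)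
    simp only [Matrix.SpecialLinearGroup.coe_mul, hs] at h
    have he : ∀ i j : Fin 5, ((mat A) * Matrix.transvection (0 : Fin 5) 1 (1 : ZMod 2)) i j = (Matrix.transvection (0 : Fin 5) 1 (1 : ZMod 2) * (mat A)) i j :=
      fun i j => by rw [h]
    refine ⟨fun i hi => ?_, fun j hj => ?_, ?_⟩
    · have := he i 1
      rw [Matrix.mul_transvection_apply_same, Matrix.transvection_mul_apply_of_ne (ha := hi)] at this
      simpa using this
    · have := he 0 j
      rw [Matrix.mul_transvection_apply_of_ne (hb := hj), Matrix.transvection_mul_apply_same] at this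
      simpa using this.symm
    · have := he 0 1
      rw [Matrix.mul_transvection_apply_same, Matrix.transvection_mul_apply_same] at this
      simp only [one_mul] at this
      linear_combination this
  let blk : Subgroup.centralizer ({s} : Set (Matrix.SpecialLinearGroup (Fin 5) (ZMod 2))) →
      Matrix (Fin 3) (Fin 3) (ZMod 2) := fun A => (mat A).submatrix (fun k => k.succ.succ) fun k => k.succ.succ
  have hdet : ∀ A, (mat A) 0 0 = 1 ∧ (blk A).det ≠ 0 := by
    intro A
    obtain ⟨h0, h1, h01⟩ := key A
    have h : (mat A).det = 1 := Matrix.SpecialLinearGroup.det_coe _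
    rw [Matrix.det_succ_column_zero, Finset.sum_eq_single 0 (fun i _ hi => by rw [h0 i hi]; simp) (by simp),
      Matrix.det_succ_row_zero, Finset.sum_eq_single 0 (fun j _ hj => by
        simp only [Matrix.submatrix_apply]
        rw [show (0 : Fin 5).succAbove 0 = 1 from rfl, h1 j.succ (fun e => hj (Fin.succ_injective _ e))]
        simp) (by simp)] at h
    simp only [Matrix.submatrix_apply, Matrix.submatrix_submatrix] at h
    refine ⟨?_, fun e => ?_⟩
    · rcases (by decide +kernel : ∀ x : ZMod 2, x = 0 ∨ x = 1) ((mat A) 0 0) with e | e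
      · rw [e] at h
        simp at h
      · exact e
    · have hb : (blk A).det = ((mat A).submatrix ((0 : Fin 5).succAbove ∘ Fin.succ)
          (Fin.succ ∘ (0 : Fin 4).succAbove)).det := rfl
      rw [← hb, e] at h
      simp at h
  let f : Subgroup.centralizer ({s} : Set (Matrix.SpecialLinearGroup (Fin 5) (ZMod 2))) →
      (Fin 7 → ZMod 2) × GL (Fin 3) (ZMod 2) := fun A =>
    (![(mat A) 0 1, (mat A) 0 2, (mat A) 0 3, (mat A) 0 4, (mat A) 2 1, (mat A) 3 1, (mat A) 4 1],
      Matrix.GeneralLinearGroup.mkOfDetNeZero (blk A) (hdet A).2)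
  have hf : Function.Injective f := by
    intro A B e
    obtain ⟨ev, eg⟩ := Prod.mk.inj e
    have eb : blk A = blk B := congrArg Units.val eg
    have e7 : ∀ k, _ := fun k => congrFun ev k
    have a0 := (key A).1
    have a1 := (key A).2.1
    have b0 := (key B).1
    have b1 := (key B).2.1
    have a00 := (hdet A).1
    have b00 := (hdet B).1
    have a11 : (mat A) 1 1 = 1 := (key A).2.2 ▸ a00
    have b11 : (mat B) 1 1 = 1 := (key B).2.2 ▸ b00
    have hblk : ∀ i j : Fin 3, (mat A) i.succ.succ j.succ.succ = (mat B) i.succ.succ j.succ.succ :=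
      fun i j => congrFun (congrFun eb i) j
    refine Subtype.ext (Matrix.SpecialLinearGroup.ext _ _ fun i j => ?_)
    fin_cases i <;> fin_cases j
    all_goals first
      | exact (a00.trans b00.symm) | exact (a11.trans b11.symm)
      | exact (a0 _ (by decide)).trans (b0 _ (by decide)).symm
      | exact (a1 _ (by decide)).trans (b1 _ (by decide)).symm
      | exact e7 0 | exact e7 1 | exact e7 2 | exact e7 3 | exact e7 4 | exact e7 5 | exact e7 6
      | exact hblk 0 0 | exact hblk 0 1 | exact hblk 0 2 | exact hblk 1 0 | exact hblk 1 1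
      | exact hblk 1 2 | exact hblk 2 0 | exact hblk 2 1 | exact hblk 2 2
  refine (Nat.card_le_card_of_injective f hf).trans (le_of_eq ?_)
  rw [Nat.card_prod, Matrix.card_GL_field]
  simp [Fin.prod_univ_three]

end Cfsg.Agent.Lib.HeCentralizer
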